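import Cfsg.Agent.H11.SimDSpec

/-! # S3694 (tower SIM), chapter D: job N0. -/

set_option autoImplicit false

namespace H35.SimN0

open Subgroup Cfsg H98 Matrix H0.Sim H11.SimD

/-- a finite group whose elements have central `p`-power powers is nilpotent -/
theorem nilp_of_pow {G : Type*} [Group G] (Y : Subgroup G) [Finite Y] {p : ℕ} [Fact p.Prime]
    (h : ∀ y ∈ Y, ∃ k : ℕ, y ^ p ^ k ∈ center G) : Group.IsNilpotent Y := by
  have hq : IsPGroup p (Y ⧸ center Y) := by
    intro q
    obtain ⟨y, rfl⟩ := QuotientGroup.mk_surjective q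
    obtain ⟨k, hk⟩ := h y y.2
    refine ⟨k, ?_⟩
    rw [← QuotientGroup.mk_pow, QuotientGroup.eq_one_iff, mem_center_iff]
    intro g
    exact Subtype.ext (mem_center_iff.1 hk g)
  have := hq.isNilpotent
  exact Group.of_quotient_center_nilpotent this

/-- a unipotent matrix in characteristic `p` has `p`-power order -/
theorem pow_eq_one_of_unip {n : ℕ} {F : Type} [Field F] (p : ℕ) [hp : Fact p.Prime] [CharP F p]
    (y : GL (Fin n) F) (h : IsNilpotent ((y : Mt n F) - 1)) : ∃ k : ℕ, y ^ p ^ k = 1 := by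
  obtain ⟨m, hm⟩ := h
  refine ⟨m, ?_⟩
  rcases isEmpty_or_nonempty (Fin n) with hn | hn
  · exact Units.ext (Subsingleton.elim _ _)
  · have h1 : ((y : Mt n F) - 1) ^ p ^ m = 0 :=
      pow_eq_zero_of_le (Nat.lt_pow_self hp.out.one_lt).le hm
    rw [sub_pow_char_pow_of_commute p m (Commute.one_right _), one_pow, sub_eq_zero] at h1
    exact Units.ext (by rw [Units.val_pow_eq_pow_val, h1, Units.val_one])

theorem jobD_N0 : H11.SimD.JobN0 := by
  intro n F _ _ Y hY
  classical
  have hp : Fact (ringChar F).Prime := ⟨CharP.char_is_prime F (ringChar F)⟩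
  have : Group.IsNilpotent Y := nilp_of_pow Y hY
  obtain ⟨S⟩ : Nonempty (Sylow (ringChar F) Y) := inferInstance
  have hS : (S : Subgroup Y).Normal := inferInstance
  refine ⟨(S : Subgroup Y).map Y.subtype, map_subtype_le _, S.isPGroup'.map _, ?_⟩
  intro y hy hn
  obtain ⟨k, hk⟩ := pow_eq_one_of_unip (ringChar F) y hn
  have hz : IsPGroup (ringChar F) (zpowers (⟨y, hy⟩ : Y)) := by
    rintro ⟨_, j, rfl⟩
    refine ⟨k, Subtype.ext (Subtype.ext ?_)⟩
    show (y ^ j) ^ ringChar F ^ k = 1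
    rw [← _root_.zpow_natCast, ← _root_.zpow_mul, mul_comm, _root_.zpow_mul, _root_.zpow_natCast,
      hk, _root_.one_zpow]
  obtain ⟨Q, hQ⟩ := hz.exists_le_sylow
  have := Sylow.unique_of_normal S hS
  have e : Q = S := Subsingleton.elim _ _
  exact ⟨⟨y, hy⟩, e ▸ hQ (mem_zpowers _), rfl⟩

end H35.SimN0
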