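import Cfsg.Agent.H84.Isolated
import Cfsg.Agent.H17.Inv
import Cfsg.Agent.H98.Sylow

/-! Bender's theorem on large TI-subgroups (S3043), part 1: every coset outside the normalizer
contains an involution. -/

set_option autoImplicit false
set_option linter.unusedSectionVars false

namespace H35.BL

open Subgroup H98

variable {G : Type*} [Group G] [Finite G] {M N : Subgroup G} {z g n t u v x y d c : G}

/-- The hypotheses. -/
structure Hy (M N : Subgroup G) (z : G) : Prop where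
  hN : N = normalizer (M : Set G)
  ne : M ≠ ⊥
  ti : ∀ x ∈ M, x ≠ 1 → ∀ g, g * x * g⁻¹ ∈ M → g ∈ N
  zz : z * z = 1
  z1 : z ≠ 1
  zN : z ∈ N
  fac : ∀ n ∈ N, ∃ x ∈ M, ∃ c, c * z = z * c ∧ n = x * c
  odd : ∀ x ∈ M, x ≠ 1 → ∀ g, g * x = x * g → Odd (orderOf g)

theorem eq_one_of_odd (h : Odd (orderOf t)) (tt : t * t = 1) : t = 1 := by
  have h2 : orderOf t ∣ 2 := orderOf_dvd_of_pow_eq_one (by rw [pow_two, tt])
  rcases (Nat.dvd_prime Nat.prime_two).1 h2 with k | k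
  · exact orderOf_eq_one_iff.1 k
  · rw [k] at h; exact absurd h (by decide)

namespace Hy

variable (H : Hy M N z)
include H

theorem le : M ≤ N := H.hN ▸ le_normalizer

theorem cj (hn : n ∈ N) (hx : x ∈ M) : n * x * n⁻¹ ∈ M := conj_mem_of_mem_normalizer (H.hN ▸ hn) hx

theorem cj' (hn : n ∈ N) (hx : x ∈ M) : n⁻¹ * x * n ∈ M := by simpa using H.cj (inv_mem hn) hx

theorem fpf (tt : t * t = 1) (t1 : t ≠ 1) (hx : x ∈ M) (h : t * x = x * t) : x = 1 :=
  by_contra fun k => t1 (eq_one_of_odd (H.odd x hx k t h) tt)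

theorem sq (hx : x ∈ M) (h : x * x = 1) : x = 1 := by_contra fun k => k (H.fpf h k hx rfl)

theorem inv (ht : t ∈ N) (tt : t * t = 1) (t1 : t ≠ 1) (hx : x ∈ M) : t * x * t⁻¹ = x⁻¹ :=
  H17.inverts_of_fpf tt (H.hN ▸ ht) (fun _ hn k => H.fpf tt t1 hn k) x hx

theorem comm (hx : x ∈ M) (hy : y ∈ M) : x * y = y * x := by
  have := H.inv H.zN H.zz H.z1 (mul_mem hx hy)
  rw [← conj_mul, H.inv H.zN H.zz H.z1 hx, H.inv H.zN H.zz H.z1 hy, ← mul_inv_rev] at this
  exact (inv_injective this).symm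

theorem notMem (tt : t * t = 1) (t1 : t ≠ 1) : t ∉ M := fun h => t1 (H.sq h tt)

/-- The involutions of `N` are conjugate under `M`. -/
theorem conj_z (ht : t ∈ N) (tt : t * t = 1) (t1 : t ≠ 1) : ∃ y ∈ M, t = y * z * y⁻¹ := by
  obtain ⟨⟨x, hx⟩, x1⟩ := ne_bot_iff_exists_ne_one.1 H.ne
  obtain ⟨j, hj⟩ := H84.exists_pow_conj_of_odd tt H.zz (H.odd x hx (fun k => x1 (Subtype.ext k)) _ (by
    rw [← mul_inv_eq_iff_eq_mul, show t * z * x * (t * z)⁻¹ = t * (z * x * z⁻¹) * t⁻¹ by group,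
      H.inv H.zN H.zz H.z1 hx, H.inv ht tt t1 (inv_mem hx), inv_inv]))
  obtain ⟨y, hy, c, hc, e⟩ := H.fac _ (pow_mem (mul_mem ht H.zN) j)
  exact ⟨y, hy, by rw [← hj, e, mul_assoc y, hc]; group⟩

theorem coset (ht : t ∈ N) (tt : t * t = 1) (t1 : t ≠ 1) : z⁻¹ * t ∈ M := by
  obtain ⟨y, hy, rfl⟩ := H.conj_z ht tt t1
  simpa [mul_assoc] using mul_mem (H.cj' H.zN hy) (inv_mem hy)

theorem coset' (ht : t ∈ N) (tt : t * t = 1) (t1 : t ≠ 1) (hu : u ∈ N) (uu : u * u = 1)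
    (u1 : u ≠ 1) : t⁻¹ * u ∈ M := by
  simpa [mul_assoc] using mul_mem (inv_mem (H.coset ht tt t1)) (H.coset hu uu u1)

theorem mul_sq (ht : t ∈ N) (tt : t * t = 1) (t1 : t ≠ 1) (hx : x ∈ M) : t * x * (t * x) = 1 := by
  calc _ = t * x * t⁻¹ * (t * t) * x := by group
    _ = 1 := by rw [H.inv ht tt t1 hx, tt]; group

/-- A coset outside `N` has at most one involution. -/
theorem uniq (hu : u ∉ N) (uu : u * u = 1) (hx : x ∈ M) (h : u * x * (u * x) = 1) : x = 1 := by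
  refine by_contra fun k => hu (H.ti x hx k u ?_)
  rw [inv_eq_of_mul_eq_one_right uu, show u * x * u = x⁻¹ from eq_inv_of_mul_eq_one_left (by
    rw [← h, mul_assoc, mul_assoc])]
  exact inv_mem hx

theorem all (hc : ¬ Nat.card {g : G // orderOf g = 2} ≤ M.index) (hg : g ∉ N) :
    ∃ x ∈ M, g * x * (g * x) = 1 := by
  classical
  by_contra k
  push Not at k
  have sq : ∀ u : {g : G // orderOf g = 2}, u.1 * u.1 = 1 ∧ u.1 ≠ 1 := fun u =>
    ⟨by simpa only [u.2, pow_two] using pow_orderOf_eq_one u.1, fun e => by simpa [e] using u.2⟩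
  have mix : ∀ x ∈ M, ∀ v : G, v * v = 1 → ((x * g : G) : G ⧸ M) ≠ v := fun x hx v vv e =>
    k ((x * g)⁻¹ * v * x) (mul_mem (QuotientGroup.eq.1 e) hx) (by
      calc _ = x⁻¹ * (v * v) * x := by group
        _ = 1 := by rw [vv]; group)
  refine hc (Nat.card_le_card_of_injective (fun u => if u.1 ∈ N then ((z⁻¹ * u.1 * g : G) : G ⧸ M)
    else (u.1 : G ⧸ M)) fun u v e => ?_)
  by_cases hu : u.1 ∈ N <;> by_cases hv : v.1 ∈ N <;> simp only [hu, hv, if_true, if_false] at e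
  · have h1 := H.coset hu (sq u).1 (sq u).2
    have h2 := H.coset hv (sq v).1 (sq v).2
    have : (z⁻¹ * u.1)⁻¹ * (z⁻¹ * v.1) = 1 := by_contra fun k1 => hg (inv_mem_iff.1
      (H.ti _ (mul_mem (inv_mem h1) h2) k1 _ (by simpa [mul_assoc] using QuotientGroup.eq.1 e)))
    exact Subtype.ext (mul_left_cancel (inv_mul_eq_one.1 this))
  · exact (mix _ (H.coset hu (sq u).1 (sq u).2) _ (sq v).1 e).elim
  · exact (mix _ (H.coset hv (sq v).1 (sq v).2) _ (sq u).1 e.symm).elim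
  · exact Subtype.ext (inv_mul_eq_one.1 (H.uniq hu (sq u).1 (QuotientGroup.eq.1 e)
      (by simpa using (sq v).1)))

/-- No involution outside `N` conjugates an element of `M` into `N`. -/
theorem key (ht : t ∈ N) (tt : t * t = 1) (t1 : t ≠ 1) (hu : u ∉ N) (tu : u * t = t * u) (hx : x ∈ M)
    (h : u * x * u⁻¹ ∈ N) : x = 1 := by
  refine by_contra fun k => hu (H.ti x hx k u ?_)
  have e : t * (u * x * u⁻¹) * t⁻¹ = (u * x * u⁻¹)⁻¹ := by
    calc _ = t * u * x * (t * u)⁻¹ := by group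
      _ = u * (t * x * t⁻¹) * u⁻¹ := by rw [← tu]; group
      _ = _ := by rw [H.inv ht tt t1 hx]; group
  simpa using H.coset' ht tt t1 (mul_mem ht h) (by
    rw [← mul_assoc, mul_inv_eq_iff_eq_mul.1 e, mul_assoc _ t t, tt]; group) (fun e1 => by
    have e2 : u * x * u⁻¹ = t := by rw [← inv_eq_of_mul_eq_one_right tt, eq_inv_of_mul_eq_one_right e1]
    refine k (H.sq hx (conj_eq_one_iff.1 (?_ : u * (x * x) * u⁻¹ = 1)))
    rw [← conj_mul, e2, tt])

end Hy

/-- Every coset of `M` outside `N` contains an involution. -/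
structure Big (M N : Subgroup G) (z : G) : Prop extends Hy M N z where
  all : ∀ g ∉ N, ∃ x ∈ M, g * x * (g * x) = 1

namespace Big

variable (B : Big M N z)
include B

theorem exists_t (hu : u ∉ N) (uu : u * u = 1) : ∃ y ∈ M, u * (y * z * y⁻¹) = y * z * y⁻¹ * u := by
  obtain ⟨x, hx, k⟩ := B.all (u * z) fun k => hu ((mul_mem_cancel_right B.zN).1 k)
  have h1 := B.mul_sq B.zN B.zz B.z1 hx
  obtain ⟨y, hy, e⟩ := B.conj_z (mul_mem B.zN (B.le hx)) h1 fun e =>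
    B.notMem B.zz B.z1 (by rw [eq_inv_of_mul_eq_one_left e]; exact inv_mem hx)
  refine ⟨y, hy, ?_⟩
  rw [mul_assoc u z x] at k
  rw [← e, ← inv_eq_of_mul_eq_one_right k, mul_inv_rev,
    inv_eq_of_mul_eq_one_right h1, inv_eq_of_mul_eq_one_right uu]

theorem zy (y : G) : y * z * y⁻¹ * (y * z * y⁻¹) = 1 := by rw [conj_mul, B.zz]; simp

theorem key' (hu : u ∉ N) (uu : u * u = 1) (hx : x ∈ M) (h : u * x * u⁻¹ ∈ N) : x = 1 := by
  obtain ⟨y, hy, k⟩ := B.exists_t hu uu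
  exact B.key (mul_mem (mul_mem (B.le hy) B.zN) (inv_mem (B.le hy))) (B.zy y)
    (fun e => B.z1 (conj_eq_one_iff.1 e)) hu k hx h

/-- `M` is semiregular on the other cosets of `N`. -/
theorem semi (hg : g ∉ N) (hx : x ∈ M) (h : g⁻¹ * x * g ∈ N) : x = 1 := by
  obtain ⟨y, hy, k⟩ := B.all g hg
  refine B.key' (fun k => hg ((mul_mem_cancel_right (B.le hy)).1 k)) k hx ?_
  rw [← inv_eq_of_mul_eq_one_right k]
  simpa [mul_assoc] using mul_mem (mul_mem (inv_mem (B.le hy)) h) (B.le hy)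

theorem dec (hu : u ∉ N) (uu : u * u = 1) (hn : n ∈ N) :
    ∃ x ∈ M, u * (n * x) * u⁻¹ = (n * x)⁻¹ := by
  obtain ⟨x, hx, k⟩ := B.all (u * n) fun k => hu ((mul_mem_cancel_right hn).1 k)
  exact ⟨x, hx, by
    rw [inv_eq_of_mul_eq_one_right uu]
    exact eq_inv_of_mul_eq_one_left (by rw [← k]; group)⟩

/-- An involution outside `N` inverts `N ⊓ N ^ u`. -/
theorem invD (hu : u ∉ N) (uu : u * u = 1) (hd : d ∈ N) (h : u * d * u⁻¹ ∈ N) :
    u * d * u⁻¹ = d⁻¹ := by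
  obtain ⟨x, hx, k⟩ := B.dec hu uu hd
  have : x = 1 := B.key' hu uu hx (by
    rw [← mul_mem_cancel_left h, conj_mul, k]; exact inv_mem (mul_mem hd (B.le hx)))
  simpa [this] using k

theorem commD (hu : u ∉ N) (uu : u * u = 1) (hd : d ∈ N) (h : u * d * u⁻¹ ∈ N) (hc : c ∈ N)
    (h' : u * c * u⁻¹ ∈ N) : d * c = c * d := by
  have := B.invD hu uu (mul_mem hd hc) (by rw [← conj_mul]; exact mul_mem h h')
  rw [← conj_mul, B.invD hu uu hd h, B.invD hu uu hc h', ← mul_inv_rev] at this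
  exact (inv_injective this).symm

theorem cen_le (hu : u ∉ N) (uu : u * u = 1) (hd : d ∈ N) (h : u * d * u⁻¹ ∈ N) (dd : d * d ≠ 1)
    (hg : g * d = d * g) : g ∈ N := by
  by_contra k
  obtain ⟨x, hx, k1⟩ := B.all g k
  have k2 := B.invD (fun e => k ((mul_mem_cancel_right (B.le hx)).1 e)) k1 hd (by
    rw [← inv_eq_of_mul_eq_one_right k1, inv_inv, mul_inv_rev, mul_assoc, mul_assoc, ← mul_assoc d,
      ← hg, mul_assoc, inv_mul_cancel_left]
    exact mul_mem (inv_mem (B.le hx)) (mul_mem hd (B.le hx)))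
  have k3 : x * d * x⁻¹ = d⁻¹ := by
    calc _ = g⁻¹ * (g * x * d * (g * x)⁻¹) * g := by group
      _ = (g⁻¹ * (d * g))⁻¹ := by rw [k2]; group
      _ = _ := by rw [← hg]; group
  refine dd (B.key' hu uu ?_ (by rw [← conj_mul]; exact mul_mem h h))
  nth_rewrite 2 [← inv_inv d]
  rw [← k3]
  simpa [mul_assoc] using mul_mem (B.cj hd hx) (inv_mem hx)

/-- `N` is a Frobenius group. -/
theorem frob (hu : u ∉ N) (uu : u * u = 1) (hd : d ∈ N) (h : u * d * u⁻¹ ∈ N) (hx : x ∈ M)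
    (k : d * x = x * d) : d = 1 ∨ x = 1 := by
  refine or_iff_not_imp_left.2 fun d1 => by_contra fun x1 => x1 (B.key' hu uu hx (B.cen_le hu uu hd h
    (fun e => d1 (eq_one_of_odd (B.odd x hx x1 d k) e)) ?_))
  have e := B.invD hu uu hd h
  have : Commute (u * x * u⁻¹) d⁻¹ := by
    rw [← e, Commute, SemiconjBy, conj_mul, conj_mul, k]
  exact (Commute.inv_right_iff.1 this).eq

end Big

end H35.BL
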