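import Cfsg.Agent.H97.GaBas
import Cfsg.Agent.H57.SLCard

/-! GAG tower (S4841): the job `JobA`. -/

set_option autoImplicit false

namespace H35.Ga

open H97.Ga

universe u v

theorem jobA (hO : JobOut.{u}) : JobA.{u, v} := by
  intro p hp H _ _ V _ _ _ _ ρ hp2 h F _ _ L _ ⟨e⟩ hpF hV
  obtain ⟨r, hr⟩ := CharP.exists F
  obtain ⟨⟨a, ha⟩, hr', hF⟩ := FiniteField.card F r
  obtain rfl : p = r := (Nat.prime_dvd_prime_iff_eq hp.out hr').1 (hp.out.dvd_of_dvd_pow (hF ▸ hpF))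
  replace hF : Fintype.card F = p ^ a := hF
  have hp3 : 3 ≤ p := by have := hp.out.two_le; omega
  have hq : 3 ≤ Fintype.card F := hp3.trans (Nat.le_of_dvd Fintype.card_pos hpF)
  have hodd : Odd (Fintype.card F) := hF ▸ (hp.out.odd_of_ne_two hp2).pow
  have hL : Nat.card L = Fintype.card F * (Fintype.card F ^ 2 - 1) := by
    rw [Nat.card_congr e.toEquiv]; exact H57.card_sl_two
  have hZ : Nat.card (Subgroup.center L) = 2 := by
    rw [Nat.card_congr (Subgroup.centerCongr e).toEquiv, H57.card_center_sl, Fintype.card_fin]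
    obtain ⟨k, hk⟩ := hodd
    rw [Nat.card_eq_fintype_card, hk]; simp
  obtain ⟨P⟩ : Nonempty (Sylow p H) := inferInstance
  obtain ⟨n, hn⟩ := P.isPGroup'.exists_card_eq
  have h1 := (P : Subgroup H).index_mul_card
  rw [h.index_sylow P, hV, hn, ← L.index_mul_card, hL, ← mul_assoc, mul_comm] at h1
  have h0 : 0 < Fintype.card F ^ 2 - 1 := by
    have : 3 ^ 2 ≤ Fintype.card F ^ 2 := Nat.pow_le_pow_left hq 2
    omega
  obtain ⟨k, -, hk⟩ := (Nat.dvd_prime_pow hp.out).1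
    (Dvd.intro _ (Nat.eq_of_mul_eq_mul_right h0 h1).symm)
  have hC := cent_eq_center L (cent_eq h.core _ (k := k) (by
    have := card_cent_dvd L
    rwa [hZ, hk] at this)) hZ
  obtain ⟨K, -, hK, ⟨g, hg⟩, h2, -⟩ := hO F L ⟨e⟩
  have h3 : L ⊔ Subgroup.centralizer (L : Set H) = L :=
    sup_eq_left.2 (hC ▸ Subgroup.map_subtype_le _)
  rw [h3] at hK h2
  have h4 : L.relIndex K = 1 := Nat.eq_one_of_dvd_coprimes
    (((Nat.coprime_primes Nat.prime_two hp.out).2 hp2.symm).pow_right k) h2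
    (hk ▸ Subgroup.relIndex_dvd_index_of_normal L K)
  obtain rfl : K = L := le_antisymm (Subgroup.relIndex_eq_one.1 h4) hK
  exact ⟨F, _, _, ⟨a, hF⟩, by omega, K, inferInstance, ⟨e⟩, ⟨k, hk⟩, ⟨g, hg⟩, hC⟩

end H35.Ga
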