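import Cfsg.Agent.H52.SimXSSpec
import Cfsg.Agent.H58.PsuGraph

/-! # S3694 (tower SIM), chapter XS: the adjoint -/

set_option autoImplicit false

namespace H35.SimAD

open Matrix H0.Sim H52.XS

theorem job : AD := by
  intro n F _ _ q hF
  have e : ∀ a : Mt n F, ad q a = (a.map (H59.frob hF))ᵀ := fun _ => rfl
  refine ⟨fun a b => ?_, fun a b => ?_, fun a => ?_, ?_, fun c a => ?_,
    H59.exists_not_fixed (H59.frob_ne_id hF), fun x => ?_⟩
  · ext i j
    simp [ad, H59.add_pow_q hF]
  · rw [e, e, e, Matrix.map_mul, transpose_mul]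
  · ext i j
    simp [ad, H59.pow_q_pow_q hF]
  · rw [e, Matrix.map_one _ (map_zero _) (map_one _), transpose_one]
  · ext i j
    simp [ad, mul_pow]
  · rw [H58.mem_GU_iff' hF, ← transpose_eq_one, transpose_mul, transpose_transpose]
    rfl

end H35.SimAD
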