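import Cfsg.Agent.H11.T3Spec

/-! T3 tower (row S5228): characteristic subgroups (`JobC6`, `JobCE`). -/

set_option autoImplicit false
set_option linter.unusedSimpArgs false

open Subgroup H11.T3 H11.T3.Co
open H90.RF (cm Au Pr cm_eq_one)

namespace H35.T3

theorem pr_cen {P : Type*} [Group P] [Finite P] {X A Y U C : Subgroup P} {β : P → P} (h : Au X β)
    (hA : A ≤ X) (hY : Y ≤ X) (pA : Pr β A) (pY : Pr β Y) (pU : Pr β U) (hC : C ≤ A)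
    (k1 : ∀ c ∈ C, ∀ y ∈ Y, cm y c ∈ U) (k2 : ∀ c ∈ A, (∀ y ∈ Y, cm y c ∈ U) → c ∈ C) : Pr β C :=
  fun c hc => k2 _ (pA c (hC hc)) (h.cm_mem' hY pY pU (hA (hC hc)) (k1 c hc))

theorem pr_bot {P : Type*} [Group P] {X : Subgroup P} {β : P → P} (h : Au X β) : Pr β ⊥ :=
  fun c hc => by rw [mem_bot.1 hc, h.one]; exact one_mem _

attribute [local simp] H11.T3.cm_b H11.T3.cm_a H11.T3.cm_d H11.T3.cm_c H11.T3.cm_e H11.T3.cm_f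
  H11.T3.cm_g H11.T3.cm_h H11.T3.cm_i H11.T3.cm_j xb xa xd xc xe xf xg xh xi xj
  mem_sE2 mem_sE1 mem_sZ6 mem_sC3 mem_sC4 mem_sZ5 mem_sD2 mem_sZ4 mem_sZ3 mem_sZ2 mem_sZ1

theorem bot_Z1 : (⊥ : Subgroup Co) ≤ sZ1 := bot_le

theorem j_of_bot {u : Co} (h : u ∈ (⊥ : Subgroup Co)) : u.j = 0 := by rw [mem_bot.1 h]; rfl

/-! ### Inside `Z₆` -/

theorem cm66 {s m : Co} (hs : s ∈ sZ6) (hm : m ∈ sZ6) : cm s m ∈ sZ4 := by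
  obtain ⟨p0, p1⟩ := hm
  obtain ⟨q0, q1⟩ := hs
  simp [p0, p1, q0, q1]

theorem k_D2 {m : Co} (hm : m ∈ sZ6) (k : ∀ y ∈ sZ6, cm y m ∈ sZ2) : m ∈ sD2 := by
  obtain ⟨p0, p1⟩ := hm
  have h1 := (k (xd 1) (by simp)).2.2.2.2.2.2.1
  have h2 := (k (xc 1) (by simp)).2.2.2.2.2.2.1
  simp [p0, p1] at h1 h2
  have h3 := (k (xd 1) (by simp)).2.2.2.2.2.2.2
  simp [p0, p1, h1, h2] at h3
  exact ⟨p0, p1, h2, h1, h3⟩

theorem k_Z3 {m : Co} (hm : m ∈ sZ6) (k : ∀ y ∈ sZ6, cm y m ∈ sZ1) : m ∈ sZ3 := by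
  have hD := k_D2 hm fun y hy => Z1_le_Z2 (k y hy)
  have h1 := (k (xd 1) (by simp)).2.2.2.2.2.2.2.2
  have h2 := (k (xe 1) (by simp)).2.2.2.2.2.2.2.2
  rw [cm_ED (by simp) hD] at h1 h2
  simp at h1 h2
  exact ⟨hD.1, hD.2.1, hD.2.2.1, hD.2.2.2.1, hD.2.2.2.2, h2, h1⟩

theorem k_Z2 {m : Co} (hm : m ∈ sZ6) (k : ∀ y ∈ sZ6, cm y m ∈ (⊥ : Subgroup Co)) : m ∈ sZ2 := by
  obtain ⟨p0, p1, p2, p3, p4, p5, p6⟩ := k_Z3 hm fun y hy => bot_Z1 (k y hy)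
  have h1 := j_of_bot (k (xd 1) (by simp))
  rw [cm_ED (by simp) ⟨p0, p1, p2, p3, p4⟩] at h1
  simp at h1
  exact ⟨p0, p1, p2, p3, p4, p5, p6, h1⟩

theorem cm_ED2 {s m : Co} (hs : s ∈ sE2) (hm : m ∈ sD2) : cm s m ∈ sZ2 := by
  rw [cm_ED hs hm]; simp

theorem cm_ZE {s m : Co} (hs : s ∈ sZ2) (hm : m ∈ sE2) : cm s m ∈ (⊥ : Subgroup Co) :=
  mem_bot.2 (cm_eq_one.2 (cm_eq_one.1 (cm_EZ hm hs)).symm)

theorem cm_C4Z4 {s m : Co} (hs : s ∈ sC4) (hm : m ∈ sZ4) : cm s m = 1 := by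
  obtain ⟨p0, p1, p2, p3, p4, p5⟩ := hm
  obtain ⟨q0, q1, q2, q3⟩ := hs
  rw [cm_ED q0 ⟨p0, p1, p2, p3, p4⟩]
  ext <;> simp [p5, q1, q2, q3]

theorem cm44 {s m : Co} (hs : s ∈ sC4) (hm : m ∈ sC4) : cm s m ∈ sZ1 := by
  obtain ⟨p0, p1, p2, p3⟩ := hm
  obtain ⟨q0, q1, q2, q3⟩ := hs
  simp [p0, p1, p2, p3, q0, q1, q2, q3]

theorem jobC6 : JobC6 := by
  intro β h
  have pb := pr_bot h
  have p6 : Pr β sZ6 := h.mem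
  have l2 : sD2 ≤ sZ6 := D2_le_C4.trans (C4_le_C3.trans C3_le_Z6)
  have l4 : sZ4 ≤ sZ6 := Z4_le_D2.trans l2
  have l3 : sZ3 ≤ sZ6 := Z3_le_Z4.trans l4
  have pZ2 : Pr β sZ2 := pr_cen h le_rfl le_rfl p6 p6 pb (Z2_le_Z3.trans l3)
    (fun c hc y hy => mem_bot.2 (cm_EZ (Z6_le_E2 hy) hc)) fun c hc => k_Z2 hc
  have pD2 : Pr β sD2 := pr_cen h le_rfl le_rfl p6 p6 pZ2 l2
    (fun c hc y hy => cm_ED2 (Z6_le_E2 hy) hc) fun c hc => k_D2 hc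
  have pZ4 : Pr β sZ4 := fun u hu => by
    have m1 : xc u.g ∈ sZ6 := by simp
    have m2 : xc u.h ∈ sZ6 := by simp
    have m3 : xd 1 ∈ sZ6 := by simp
    have m4 : xe 1 ∈ sZ6 := by simp
    have hz : (cm (xc u.g) (xd 1) * cm (xc u.h) (xe 1))⁻¹ * u ∈ sZ2 := by
      obtain ⟨p0, p1, p2, p3, p4, p5⟩ := hu
      simp [p0, p1, p2, p3, p4, p5]
    have e : u = cm (xc u.g) (xd 1) * cm (xc u.h) (xe 1) *
      ((cm (xc u.g) (xd 1) * cm (xc u.h) (xe 1))⁻¹ * u) := by rw [mul_inv_cancel_left]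
    rw [e, h.mul _ (mul_mem (l4 (cm66 m1 m3)) (l4 (cm66 m2 m4))) _ (l3 (Z2_le_Z3 hz)),
      h.mul _ (l4 (cm66 m1 m3)) _ (l4 (cm66 m2 m4)), h.cm m1 m3, h.cm m2 m4]
    exact mul_mem (mul_mem (cm66 (p6 _ m1) (p6 _ m3)) (cm66 (p6 _ m2) (p6 _ m4)))
      (Z3_le_Z4 (Z2_le_Z3 (pZ2 _ hz)))
  have l5 : sC4 ≤ sZ6 := C4_le_C3.trans C3_le_Z6
  have pC4 : Pr β sC4 := pr_cen h le_rfl l4 p6 pZ4 pb l5
    (fun c hc y hy => mem_bot.2 (cm_eq_one.2 (cm_eq_one.1 (cm_C4Z4 hc hy)).symm)) fun m hm k => by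
      obtain ⟨p0, p1⟩ := hm
      have h1 := (bot_Z1 (k (xg 1) (by simp))).2.2.2.2.2.2.2.2
      simp [p0, p1] at h1
      have h2 := j_of_bot (k (xg 1) (by simp))
      simp [p0, p1, h1] at h2
      exact ⟨p0, p1, h1, h2⟩
  have pZ1 : Pr β sZ1 := fun u hu => by
    have m1 : xc u.j ∈ sC4 := by simp
    have m2 : xf 1 ∈ sC4 := by simp
    have e : u = cm (xc u.j) (xf 1) := by
      obtain ⟨p0, p1, p2, p3, p4, p5, p6, p7, p8⟩ := hu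
      ext <;> simp [*]
    rw [e, h.cm (l5 m1) (l5 m2)]
    exact cm44 (pC4 _ m1) (pC4 _ m2)
  have pZ3 : Pr β sZ3 := pr_cen h le_rfl le_rfl p6 p6 pZ1 l3
    (fun c hc y hy => by
      obtain ⟨p0, p1, p2, p3, p4, p5, p6⟩ := hc
      rw [cm_ED hy.1 ⟨p0, p1, p2, p3, p4⟩]
      simp [p5, p6, hy.2]) fun c hc => k_Z3 hc
  have pC3 : Pr β sC3 := pr_cen h le_rfl l3 p6 pZ3 pb C3_le_Z6
    (fun c hc y hy => by
      obtain ⟨p0, p1, p2, p3, p4, p5, p6⟩ := hy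
      refine mem_bot.2 (cm_eq_one.2 (cm_eq_one.1 ?_).symm)
      rw [cm_ED hc.1 ⟨p0, p1, p2, p3, p4⟩]
      ext <;> simp [p5, p6, hc.2.1, hc.2.2]) fun m hm k => by
      obtain ⟨p0, p1⟩ := hm
      have h2 := j_of_bot (k (xh 1) (by simp))
      simp [p0, p1] at h2
      exact ⟨p0, p1, h2⟩
  intro k hk
  interval_cases k
  exacts [pb, pZ1, pZ2, pZ3, pZ4, pD2, pC4, pC3, p6]

/-! ### `E₁`, `E₂` and the whole group -/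

theorem b_of_i {m : Co} (h : cm (xi 1) m ∈ (⊥ : Subgroup Co)) : m.b = 0 := by
  simpa using j_of_bot h

theorem b_of_g {m : Co} (h : cm (xg 1) m ∈ sZ1) : m.b = 0 := by
  simpa using h.2.2.2.2.2.2.2.1

theorem a_of_h {m : Co} (h : cm (xh 1) m ∈ sZ1) : m.a = 0 := by
  simpa using h.2.2.2.2.2.2.2.2

theorem a_of_c {m : Co} (hm : m ∈ sE2) (h : cm (xc 1) m ∈ sZ4) : m.a = 0 := by
  have p : m.b = 0 := hm
  simpa [p] using h.2.2.2.2.2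

theorem k1_Z1 {m : Co} (hm : m ∈ sE1) (k : ∀ y ∈ sE1, cm y m ∈ (⊥ : Subgroup Co)) : m ∈ sZ1 := by
  obtain ⟨p0, p1, p2, p3, p4, p5, p6, p7⟩ :=
    k_Z2 ⟨b_of_i (k _ (by simp)), hm⟩ fun y hy => k y (Z6_le_E1 hy)
  have h2 := j_of_bot (k (xb 1) (by simp))
  simp [p0, p1, p2, p3, p4, p5, p6, p7] at h2
  exact ⟨p0, p1, p2, p3, p4, p5, p6, p7, h2⟩

theorem k1_Z3 {m : Co} (hm : m ∈ sE1) (k : ∀ y ∈ sE1, cm y m ∈ sZ1) : m ∈ sZ3 :=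
  k_Z3 ⟨b_of_g (k _ (by simp)), hm⟩ fun y hy => k y (Z6_le_E1 hy)

theorem cm_E1Z3 {s m : Co} (hs : s ∈ sE1) (hm : m ∈ sZ3) : cm s m ∈ sZ1 := by
  obtain ⟨p0, p1, p2, p3, p4, p5, p6⟩ := hm
  have q : s.a = 0 := hs
  simp [p0, p1, p2, p3, p4, p5, p6, q]

theorem cm_Z3E1 {s m : Co} (hs : s ∈ sZ3) (hm : m ∈ sE1) : cm s m ∈ sZ1 := by
  obtain ⟨p0, p1, p2, p3, p4, p5, p6⟩ := hs
  have q : m.a = 0 := hm
  simp [p0, p1, p2, p3, p4, p5, p6, q]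

theorem ce1 (β : Co → Co) (h : Au sE1 β) : Pr β sZ1 ∧ Pr β sZ3 ∧ (Pr β sZ2 → Pr β sZ6) := by
  have pb := pr_bot h
  have p1 : Pr β sE1 := h.mem
  have l3 : sZ3 ≤ sE1 := fun _ h => h.2.1
  have l2 : sZ2 ≤ sE1 := fun _ h => h.2.1
  have pZ1 : Pr β sZ1 := pr_cen h le_rfl le_rfl p1 p1 pb (fun _ h => h.2.1)
    (fun c hc y _ => mem_bot.2 (cm_Z1 y hc)) fun c hc => k1_Z1 hc
  exact ⟨pZ1, pr_cen h le_rfl le_rfl p1 p1 pZ1 l3 (fun c hc y hy => cm_E1Z3 hy hc) fun c hc => k1_Z3 hc,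
    fun pZ2 => pr_cen h le_rfl l2 p1 pZ2 pb Z6_le_E1 (fun c hc y hy => cm_ZE hy (Z6_le_E2 hc))
      fun c hc k => ⟨b_of_i (k _ (by simp)), hc⟩⟩

theorem ce2 (β : Co → Co) (h : Au sE2 β) : Pr β sZ2 ∧ (Pr β sZ1 → Pr β sZ6) := by
  have pb := pr_bot h
  have p2 : Pr β sE2 := h.mem
  have pZ2 : Pr β sZ2 := pr_cen h le_rfl le_rfl p2 p2 pb (fun _ h => h.1)
    (fun c hc y hy => mem_bot.2 (cm_EZ hy hc)) fun c hc k =>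
      k_Z2 ⟨hc, a_of_h (bot_Z1 (k _ (by simp)))⟩ fun y hy => k y (Z6_le_E2 hy)
  refine ⟨pZ2, fun pZ1 => ?_⟩
  have lD : sD2 ≤ sE2 := fun _ h => h.1
  have lC : sC4 ≤ sE2 := fun _ h => h.1
  have pD2 : Pr β sD2 := pr_cen h le_rfl le_rfl p2 p2 pZ2 lD (fun c hc y hy => cm_ED2 hy hc)
    fun c hc k => k_D2 ⟨hc, a_of_c hc (Z3_le_Z4 (Z2_le_Z3 (k _ (by simp))))⟩ fun y hy => k y (Z6_le_E2 hy)
  have pC4 : Pr β sC4 := pr_cen h le_rfl lD p2 pD2 pZ1 lC (fun c hc y hy => cm44 (D2_le_C4 hy) hc)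
    fun m hm k => by
      have p0 : m.b = 0 := hm
      have p1 := a_of_h (k _ (by simp))
      have h1 := (k (xg 1) (by simp)).2.2.2.2.2.2.2.2
      have h2 := (k (xf 1) (by simp)).2.2.2.2.2.2.2.2
      simp [p0, p1] at h1 h2
      exact ⟨p0, p1, h1, h2⟩
  have pZ4 : Pr β sZ4 := pr_cen h lD lC pD2 pC4 pb Z4_le_D2 (fun c hc y hy => mem_bot.2 (cm_C4Z4 hy hc))
    fun m hm k => by
      have h1 := j_of_bot (k (xc 1) (by simp))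
      rw [cm_ED (by simp) hm] at h1
      simp at h1
      exact ⟨hm.1, hm.2.1, hm.2.2.1, hm.2.2.2.1, hm.2.2.2.2, h1⟩
  exact pr_cen h le_rfl lC p2 pC4 pZ4 Z6_le_E2 (fun c hc y hy => cm66 (C3_le_Z6 (C4_le_C3 hy)) hc)
    fun c hc k => ⟨hc, a_of_c hc (k _ (by simp))⟩

theorem ce3 (θ : Co → Co) (h : Au ⊤ θ) : Pr θ sE1 ∧ Pr θ sE2 := by
  have pb := pr_bot h
  have pt : Pr θ ⊤ := h.mem
  have pZ1 : Pr θ sZ1 := pr_cen h le_rfl le_rfl pt pt pb le_top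
    (fun c hc y _ => mem_bot.2 (cm_Z1 y hc)) fun c _ k =>
      k1_Z1 (a_of_h (bot_Z1 (k _ trivial))) fun y _ => k y trivial
  have pZ2 : Pr θ sZ2 := pr_cen h le_rfl le_rfl pt pt pZ1 le_top (fun c hc y _ => cm_Z2 y hc)
    fun m _ k => by
      obtain ⟨p0, p1, p2, p3, p4, p5, p6⟩ := k1_Z3 (a_of_h (k _ trivial)) fun y _ => k y trivial
      have h1 := (k (xa 1) trivial).2.2.2.2.2.2.2.2
      simp [p0, p1, p2, p3, p4, p5, p6] at h1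
      exact ⟨p0, p1, p2, p3, p4, p5, p6, h1⟩
  have pE2 : Pr θ sE2 := pr_cen h le_rfl le_top pt pZ2 pb le_top (fun c hc y hy => cm_ZE hy hc)
    fun c _ k => b_of_i (k _ (by simp))
  have pZ6 := (ce2 θ (h.restrict le_top pE2)).2 pZ1
  have pZ3 : Pr θ sZ3 := jobC6 θ (h.restrict le_top pZ6) 3 (by norm_num)
  exact ⟨pr_cen h le_rfl le_top pt pZ3 pZ1 le_top (fun c hc y hy => cm_Z3E1 hy hc)
    fun c _ k => a_of_h (k _ (by simp)), pE2⟩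

theorem jobCE : JobCE := ⟨ce1, ce2, ce3⟩

end H35.T3
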