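import Cfsg.Agent.H35.T3C

/-! T3 tower (row S5228): normal subgroups (`JobTS`). -/

set_option autoImplicit false
set_option linter.unusedSimpArgs false

open Subgroup H11.T3 H11.T3.Co
open H90.RF (cm Au Pr cm_eq_one)

namespace H35.T3

attribute [local simp] H11.T3.cm_b H11.T3.cm_a H11.T3.cm_d H11.T3.cm_c H11.T3.cm_e H11.T3.cm_f
  H11.T3.cm_g H11.T3.cm_h H11.T3.cm_i H11.T3.cm_j xb xa xd xc xe xf xg xh xi xj
  mem_sE2 mem_sE1 mem_sZ6 mem_sC3 mem_sC4 mem_sZ5 mem_sD2 mem_sZ4 mem_sZ3 mem_sZ2 mem_sZ1 mem_sP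

theorem z3' (x y : ZMod 3) : y ≠ 0 → x = 0 ∨ y + x = 0 ∨ y + (y + x) = 0 := by revert x y; decide

theorem neg2 (x : ZMod 3) : x + x + x = 0 := by revert x; decide

variable {T : Subgroup Co}

theorem step {A B : Subgroup Co} (π : Co → ZMod 3) (add : ∀ u ∈ B, ∀ w ∈ B, π (u * w) = π u + π w)
    (ker : ∀ u ∈ B, π u = 0 → u ∈ A) (hA : A ≤ T) {t : Co} (ht : t ∈ T) (hB : t ∈ B) (h : π t ≠ 0) :
    B ≤ T := fun u hu => by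
  rcases z3' (π u) (π t) h with e | e | e
  · exact hA (ker u hu e)
  · exact (mul_mem_cancel_left ht).1 (hA (ker _ (mul_mem hB hu) (by rw [add _ hB _ hu, e])))
  · exact (mul_mem_cancel_left ht).1 ((mul_mem_cancel_left ht).1 (hA (ker _ (mul_mem hB (mul_mem hB hu))
      (by rw [add _ hB _ (mul_mem hB hu), add _ hB _ hu, e]))))

theorem cm_T (hT : T.Normal) (s : Co) {t : Co} (ht : t ∈ T) : cm s t ∈ T :=
  mul_mem (inv_mem ht) (hT.conj_mem t ht s)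

theorem st1 {t : Co} (ht : t ∈ T) (hB : t ∈ sZ1) (h : t.j ≠ 0) : sZ1 ≤ T :=
  step (A := ⊥) Co.j (by
      rintro u ⟨p0, p1, p2, p3, p4, p5, p6, p7, p8⟩ w ⟨q0, q1, q2, q3, q4, q5, q6, q7, q8⟩
      simp [*]) (by
      rintro u ⟨p0, p1, p2, p3, p4, p5, p6, p7, p8⟩ e
      exact mem_bot.2 (by ext <;> simp [*])) bot_le ht hB h

theorem st2 (hA : sZ1 ≤ T) {t : Co} (ht : t ∈ T) (hB : t ∈ sZ2) (h : t.i ≠ 0) : sZ2 ≤ T :=
  step (A := sZ1) Co.i (by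
      rintro u ⟨p0, p1, p2, p3, p4, p5, p6, p7⟩ w ⟨q0, q1, q2, q3, q4, q5, q6, q7⟩
      simp [*]) (fun _ ⟨p0, p1, p2, p3, p4, p5, p6, p7⟩ e => ⟨p0, p1, p2, p3, p4, p5, p6, p7, e⟩)
    hA ht hB h

theorem st3 (hA : sZ2 ≤ T) {t : Co} (ht : t ∈ T) (hB : t ∈ sZ3) (h : t.h ≠ 0) : sZ3 ≤ T :=
  step (A := sZ2) Co.h (by
      rintro u ⟨p0, p1, p2, p3, p4, p5, p6⟩ w ⟨q0, q1, q2, q3, q4, q5, q6⟩
      simp [*]) (fun _ ⟨p0, p1, p2, p3, p4, p5, p6⟩ e => ⟨p0, p1, p2, p3, p4, p5, p6, e⟩) hA ht hB h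

theorem st4 (hA : sZ3 ≤ T) {t : Co} (ht : t ∈ T) (hB : t ∈ sZ4) (h : t.g ≠ 0) : sZ4 ≤ T :=
  step (A := sZ3) Co.g (by
      rintro u ⟨p0, p1, p2, p3, p4, p5⟩ w ⟨q0, q1, q2, q3, q4, q5⟩
      simp [*]) (fun _ ⟨p0, p1, p2, p3, p4, p5⟩ e => ⟨p0, p1, p2, p3, p4, p5, e⟩) hA ht hB h

theorem st5 (hA : sZ4 ≤ T) {t : Co} (ht : t ∈ T) (hB : t ∈ sD2) (h : t.f ≠ 0) : sD2 ≤ T :=
  step (A := sZ4) Co.f (by
      rintro u ⟨p0, p1, p2, p3, p4⟩ w ⟨q0, q1, q2, q3, q4⟩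
      simp [*]) (fun _ ⟨p0, p1, p2, p3, p4⟩ e => ⟨p0, p1, p2, p3, p4, e⟩) hA ht hB h

theorem st6 (hA : sD2 ≤ T) {t : Co} (ht : t ∈ T) (hB : t ∈ sZ5) (h : t.e ≠ 0) : sZ5 ≤ T :=
  step (A := sD2) Co.e (by
      rintro u ⟨p0, p1, p2, p3⟩ w ⟨q0, q1, q2, q3⟩
      simp [*]) (fun _ ⟨p0, p1, p2, p3⟩ e => ⟨p0, p1, p2, p3, e⟩) hA ht hB h

theorem st7 (hA : sZ5 ≤ T) {t : Co} (ht : t ∈ T) (hB : t ∈ sP) (h : t.d ≠ 0) : sP ≤ T :=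
  step (A := sZ5) Co.d (by
      rintro u ⟨p0, p1, p2⟩ w ⟨q0, q1, q2⟩
      simp [*]) (fun _ ⟨p0, p1, p2⟩ e => ⟨p0, p1, e, p2.trans e⟩) hA ht hB h

theorem exists_cen (hT : T.Normal) (k : ℕ) (hk : k ≤ 10) : ∀ t ∈ T, t ∈ z0 k → t ≠ 1 →
    ∃ t ∈ T, t ≠ 1 ∧ ∀ s, cm s t = 1 := by
  induction k with
  | zero => exact fun t _ h h1 => (h1 (mem_bot.1 h)).elim
  | succ k ih =>
    intro t ht h h1
    by_cases e : ∀ s, cm s t = 1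
    · exact ⟨t, ht, h1, e⟩
    · obtain ⟨s, hs⟩ := not_forall.1 e
      exact ih (by omega) _ (cm_T hT s ht) (z0_cm k (by omega) t h s) hs

theorem ts1 (hT : T.Normal) (h : T ≠ ⊥) : sZ1 ≤ T := by
  obtain ⟨⟨t, ht⟩, h1⟩ := ne_bot_iff_exists_ne_one.1 h
  obtain ⟨t, ht, h1, h2⟩ := exists_cen hT 10 le_rfl t ht trivial fun e => h1 (Subtype.ext e)
  have hz := k1_Z1 (a_of_h (m := t) (by rw [h2]; exact one_mem _)) fun y _ => mem_bot.2 (h2 y)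
  refine st1 ht hz fun e => h1 ?_
  obtain ⟨p0, p1, p2, p3, p4, p5, p6, p7, p8⟩ := hz
  ext <;> simp [*]

theorem ts2' (hT : T.Normal) {p : Co} (hp : p ∈ T) (hP : p ∈ sP) (hd : p.d ≠ 0) : sP ≤ T := by
  have h6 := P_le_Z6 hP
  obtain ⟨p0, p1, p2⟩ := hP
  have a1 : (cm (xb 1) p).e ≠ 0 := by simpa [p0, p1] using hd
  have m2 : cm (xa 1) p ∈ sD2 := by simp [p0, p1]
  have a2 : (cm (xa 1) p).f ≠ 0 := by simpa [p0, p1, p2] using hd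
  have t2 := cm_T hT (xa 1) hp
  generalize cm (xa 1) p = q2 at m2 a2 t2
  have m3 := cm_D2 (xb 1) m2
  have a3 : (cm (xb 1) q2).g ≠ 0 := by
    obtain ⟨q0, q1, q2, q3, q4⟩ := m2
    simpa [q0, q1, q2, q3, q4] using a2
  have t3 := cm_T hT (xb 1) t2
  generalize cm (xb 1) q2 = q3 at m3 a3 t3
  have m4 := cm_Z4 (xb 1) m3
  have a4 : (cm (xb 1) q3).h ≠ 0 := by
    obtain ⟨q0, q1, q2, q3, q4, q5⟩ := m3
    simpa [q0, q1, q2, q3, q4, q5] using a3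
  have t4 := cm_T hT (xb 1) t3
  generalize cm (xb 1) q3 = q4 at m4 a4 t4
  have m5 := cm_Z3 (xa 1) m4
  have a5 : (cm (xa 1) q4).i ≠ 0 := by
    obtain ⟨q0, q1, q2, q3, q4, q5, q6⟩ := m4
    simpa [q0, q1, q2, q3, q4, q5, q6] using a4
  have h1 := ts1 hT fun e => hd (by rw [mem_bot.1 (e.le hp)]; rfl)
  exact st7 (st6 (st5 (st4 (st3 (st2 h1 (cm_T hT _ t4) m5 a5) t4 m4 a4) t3 m3 a3) t2 m2 a2)
    (cm_T hT _ hp) (cm_Z6 _ h6) a1) hp ⟨p0, p1, p2⟩ hd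

theorem ts2 (hT : T.Normal) (h : ¬ T ≤ sZ6) : sP ≤ T := by
  obtain ⟨t, ht, h1⟩ := SetLike.not_le_iff_exists.1 h
  by_cases e : t.b = 0
  · exact ts2' hT (cm_T hT (xb 1) ht) (cm_P ..) (by simpa using fun e' => h1 ⟨e, e'⟩)
  · exact ts2' hT (cm_T hT (xa 1) ht) (cm_P ..) (by simpa using e)

theorem z6_le (hP : sP ≤ T) {y : Co → Co} (p : Pr y sZ6) (hd : ∀ u ∈ sZ6, (y u).d = -u.d)
    (hc : ∀ u ∈ sZ6, (y u).c = -u.c) (h : ∀ u ∈ sZ6, u⁻¹ * y u ∈ T) : sZ6 ≤ T := fun u hu => by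
  refine (mul_mem_cancel_left (inv_mem (h u hu))).1 (hP (Z5_le_P ?_))
  have h1 := hd u hu
  have h2 := hc u hu
  obtain ⟨q0, q1⟩ := p u hu
  obtain ⟨p0, p1⟩ := hu
  simp [p0, p1, q0, q1, h1, h2, neg2]

theorem jobTS : JobTS := by
  intro T hT
  refine ⟨ts1 hT, ts2 hT, fun h2 ⟨w, hw, ⟨p0, p1, p2, p3, p4⟩, p5, p6⟩ => ?_, fun hP h u hu => ?_,
    fun hP y L p h u hu => ?_, fun hP y L p h u hu => ?_, fun h1 h => ?_, fun h1 h => ?_⟩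
  · exact st4 (st3 h2 (cm_T hT (xe 1) hw) (by simp [*]) (by simp [*])) (cm_T hT (xc 1) hw)
      (by simp [*]) (by simp [*])
  · obtain ⟨w, hw, ⟨p0, p1, p2, p3, p4⟩, p5, p6⟩ := h u.a (u.d - u.c)
    have q : u.b = 0 := hu
    exact (mul_mem_cancel_left (inv_mem hw)).1 (hP (by simp [*]))
  · have h6 := z6_le hP p (fun u hu => by simp [L.d u hu]) (fun u hu => by simp [L.c u hu])
      fun u hu => h u (Z6_le_E1 hu)
    have q : u.a = 0 := hu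
    exact (mul_mem_cancel_left (inv_mem (h u hu))).1 (h6 (by simp [L.b, L.a, q, neg2]))
  · have h6 := z6_le hP p (fun u hu => by simp [L.d u hu]) (fun u hu => by simp [L.c u hu])
      fun u hu => h u (Z6_le_E2 hu)
    have q : u.b = 0 := hu
    exact (mul_mem_cancel_left (inv_mem (h u hu))).1 (h6 (by simp [L.b, L.a, q, neg2]))
  · obtain ⟨t, ht, e⟩ := SetLike.not_le_iff_exists.1 h
    exact eq_top_iff.2 (step Co.a (fun _ _ _ _ => rfl) (fun _ _ e => e) h1 ht trivial e)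
  · obtain ⟨t, ht, e⟩ := SetLike.not_le_iff_exists.1 h
    exact eq_top_iff.2 (step Co.b (fun _ _ _ _ => rfl) (fun _ _ e => e) h1 ht trivial e)

end H35.T3
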